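import Cfsg.Agent.H670.Reg.Defs
import Cfsg.Agent.H678.DG.Basic

/-!
# Kites in the degree graph from lists of degrees (helper133)

* `Kite.of_equiv` : transport.
* `kite_of_list` : a kite from a list of primes and a list of divisors of degrees, by a decidable check.
-/

set_option autoImplicit false

namespace Cfsg.Agent.H133.Kite

open Cfsg Cfsg.Agent.H671.H5 Cfsg.Agent.H670.Reg Cfsg.Agent.H678.DG

universe u v

theorem of_equiv {S : Type u} [Group S] {T : Type v} [Group T] (e : S ≃* T) (h : Kite T) : Kite S := by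
  have h1 : Cfsg.degreeGraph S = Cfsg.degreeGraph T := H424.DegTools.degreeGraph_congr e
  unfold Kite H671.H5.Adj at *
  rw [h1]
  exact h

/-- Two triangles with a common edge in the list. -/
def chkK (P D : List ℕ) : Bool :=
  P.any fun u => P.any fun v => (u != v && edge D u v) && P.any fun w => (u != w && v != w && edge D u w && edge D v w) &&
    P.any fun z => u != z && v != z && w != z && edge D u z && edge D v z

/-- A vertex with four neighbours. -/
def chkV (P D : List ℕ) : Bool :=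
  P.any fun u => decide (4 ≤ (P.filter fun v => u != v && edge D u v).length)

variable {S : Type u} [Group S] {P D : List ℕ}

theorem kite_of_list (hp : ∀ p ∈ P, p.Prime) (hD : ∀ d ∈ D, IM d S) (hok : chkK P D = true) : Kite S := by
  left
  unfold chkK at hok
  simp only [List.any_eq_true, Bool.and_eq_true, bne_iff_ne] at hok
  obtain ⟨u, hu, v, hv, ⟨e1, h1⟩, w, hw, ⟨⟨⟨e2, e3⟩, h2⟩, h3⟩, z, hz, ⟨⟨⟨e4, e5⟩, e6⟩, h4⟩, h5⟩ := hok
  exact ⟨u, v, w, z, e6, adj_of_edge hp hD hu hv e1 h1, adj_of_edge hp hD hu hw e2 h2, adj_of_edge hp hD hv hw e3 h3,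
    adj_of_edge hp hD hu hz e4 h4, adj_of_edge hp hD hv hz e5 h5⟩

/-- A vertex with four neighbours, explicitly. -/
theorem kite_of_vertex {u a b c d : ℕ} (hab : [a, b, c, d].Nodup) (hp : ∀ p ∈ [u, a, b, c, d], p.Prime)
    (hu : u ∉ [a, b, c, d]) (hD : ∀ x ∈ [a, b, c, d], IM (u * x) S) : Kite S := by
  right
  have h : ∀ x ∈ [a, b, c, d], Adj u x S := by
    intro x hx
    refine adj_iff.2 ⟨?_, hp u (by simp), hp x (by simp only [List.mem_cons, List.not_mem_nil, or_false] at hx ⊢; tauto), ?_⟩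
    · rintro rfl
      exact hu hx
    · obtain ⟨χ, hχ⟩ := hD x hx
      exact ⟨χ, hχ⟩
  simp only [List.nodup_cons, List.mem_cons, List.not_mem_nil, or_false, not_or, not_false_eq_true, List.nodup_nil,
    and_true] at hab
  obtain ⟨⟨h1, h2, h3⟩, ⟨h4, h5⟩, h6⟩ := hab
  exact ⟨u, a, b, c, d, h1, h2, h3, h4, h5, h6, h a (by simp), h b (by simp), h c (by simp), h d (by simp)⟩

theorem im_of_deg {d : ℕ} (h : ∃ χ : IrrCharacter S, charDegree (χ : S → ℂ) = d) : IM d S := by
  obtain ⟨χ, hχ⟩ := h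
  exact ⟨χ, by rw [hχ]⟩

end Cfsg.Agent.H133.Kite
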