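import Cfsg.Agent.H133.Kite.Basic
import Cfsg.Agent.H678.DG.HS

/-!
# Kite in the degree graph of `HS` (helper133)
-/

set_option autoImplicit false

namespace Cfsg.Agent.H133.Kite

open Cfsg Cfsg.Agent.H671.H5 Cfsg.Agent.H670.Reg

universe u

open Cfsg.Agent.HN Cfsg.Agent.HN.HS100 in
/-- `HS`: the degree `770`. -/
theorem kite_hs {S : Type u} [Group S] (h : Spor.IsoHS S) : Kite S := by
  obtain ⟨e⟩ := h
  obtain ⟨⟨f⟩, -⟩ := AutHS.nonempty_Q
  refine of_equiv (e.trans f.symm) ?_
  refine kite_of_list (P := [2, 5, 7, 11]) (D := [770]) ?_ ?_ (by decide +kernel)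
  · intro p hp; fin_cases hp <;> norm_num
  · intro m hm
    rw [List.mem_singleton] at hm
    subst hm
    exact im_of_deg H678.DG.HSDeg.deg_770

end Cfsg.Agent.H133.Kite
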