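import Cfsg.Agent.H133.Kite.Basic
import Cfsg.Agent.H653.Spor.J1

/-!
# Kite in the degree graph of `J1` (helper133)

The triangles `2, 7, 19` and `7, 11, 19`.
-/

set_option autoImplicit false
set_option maxRecDepth 100000
set_option linter.unusedSectionVars false

namespace Cfsg.Agent.H133.Kite

open Cfsg Cfsg.Agent.Characters.Core Cfsg.Agent.H653.Sys Cfsg.Agent.H653.Sieve Cfsg.Agent.H653.Graph
open Subgroup Cfsg.Agent.H413.JOneSpec Cfsg.Agent.SporRec.J1.Defs Cfsg.Agent.H653.Spor.J1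
open Cfsg.Agent.H671.H5 Cfsg.Agent.H670.Reg

universe u

theorem cl_14 {S : Type u} [Group S] [Finite S] [Fintype (IrrCharacter S)] {lab : S → ℕ}
    (C : Ctx S lab 175560 L (Ds.map PD.fam) Cs) : Cl S [14] :=
  C.cl _ 0
    [⟨0, 0, -1, [9, 2, 0, 0]⟩, ⟨0, 0, 0, [2, 0, 0]⟩, ⟨0, 0, 0, [0, 0]⟩, ⟨0, 0, 0, [0]⟩, ⟨0, 0, 0, []⟩]
    [] (by decide +kernel)

theorem im_of_cl {S : Type u} [Group S] {m : ℕ} (h : Cl S [m]) : IM m S := by
  obtain ⟨n, hn, χ, hχ⟩ := h
  rw [List.mem_singleton] at hn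
  subst hn
  exact ⟨χ, hχ⟩

theorem kite_j1_local {K : Type u} [Group K] [Finite K] [IsSimpleGroup K] (h : Local K)
    (hc : Nat.card K = 175560) : Kite K := by
  classical
  have := finite_irr (G := K)
  have := Fintype.ofFinite (IrrCharacter K)
  have ex : ∀ p : ℕ, p.Prime → p ∣ Nat.card K → ∃ x : K, orderOf x = p := by
    intro p hp hd
    have := Fact.mk hp
    exact exists_prime_orderOf_dvd_card' (G := K) p hd
  have hbig : ∀ p : ℕ, Big p → p.Prime → p ∣ 175560 → ∃ x : K, orderOf x = p ∧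
      Nat.card (centralizer ({x} : Set K)) = p * 1 := by
    intro p hb hp hd
    obtain ⟨x, hx⟩ := ex p hp (by rw [hc]; exact hd)
    refine ⟨x, hx, ?_⟩
    rw [H417.JOneDeg.card_cent h hc (by rw [hx]; exact hb), hx, mul_one]
  have hD : ∀ D ∈ Ds, D.Cent K := by
    intro D hD
    simp only [Ds, List.mem_cons, List.not_mem_nil, or_false] at hD
    rcases hD with rfl | rfl | rfl | rfl | rfl
    · exact hbig 19 (by unfold Big; tauto) (by norm_num) (by norm_num)
    · exact hbig 11 (by unfold Big; tauto) (by norm_num) (by norm_num)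
    · exact hbig 7 (by unfold Big; tauto) (by norm_num) (by norm_num)
    · obtain ⟨x, hx⟩ := ex 5 (by norm_num) (by rw [hc]; norm_num)
      exact ⟨x, hx, h.cent5 x hx⟩
    · obtain ⟨x, hx⟩ := ex 3 (by norm_num) (by rw [hc]; norm_num)
      exact ⟨x, hx, h.cent3 x hx⟩
  have C : Ctx K (fun g : K => orderOf g) 175560 L (Ds.map PD.fam) Cs :=
    ctx_of_primes (L := L) (Cs := Cs) hc (by norm_num) (by decide +kernel) (by decide +kernel)
      (by decide +kernel) hD (by simp [Cs])
  refine kite_of_list (P := [7, 19, 2, 11]) (D := [14, 38, 133, 77, 209]) ?_ ?_ (by decide +kernel)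
  · intro p hp; fin_cases hp <;> norm_num
  · intro d hd
    simp only [List.mem_cons, List.not_mem_nil, or_false] at hd
    rcases hd with rfl | rfl | rfl | rfl | rfl
    · exact im_of_cl (cl_14 C)
    · exact im_of_cl (cl_3 C)
    · exact im_of_cl (cl_6 C)
    · exact im_of_cl (cl_5 C)
    · exact im_of_cl (cl_7 C)

/-- `J1`. -/
theorem kite_j1 {S : Type u} [Group S] (h : Spor.IsoJ1 S) : Kite S := by
  obtain ⟨e⟩ := h
  have : IsSimpleGroup Spor.J1 := SporadicB.J1.Main.isJ1.1
  have hfin : Finite Spor.J1 := Nat.finite_of_card_ne_zero (by rw [H413.JOneLocal.card_J1]; norm_num)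
  exact of_equiv e (kite_j1_local H413.JOneLocal.isLocal H413.JOneLocal.card_J1)

end Cfsg.Agent.H133.Kite
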