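import Cfsg.Agent.H133.Kite.Basic
import Cfsg.Agent.H653.Spor.Mathieu
import Cfsg.Agent.H653.Spor.J1
import Cfsg.Agent.H653.Spor.J3

/-!
# Kites in the degree graph: Mathieu groups, `J1`, `J3` (helper133)
-/

set_option autoImplicit false

namespace Cfsg.Agent.H133.Kite

open Cfsg Cfsg.Agent.H671.H5 Cfsg.Agent.H670.Reg Cfsg.Agent.H678.DG

universe u

/-- `M22`: the degree `210`. -/
theorem kite_m22 {S : Type u} [Group S] (h : Spor.IsoM22 S) : Kite S := by
  have h' := H417.RecogMathieu.isM22 h
  have : Finite S := Nat.finite_of_card_ne_zero (by rw [h'.2]; norm_num)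
  refine kite_of_list (P := [2, 3, 5, 7]) (D := [210]) ?_ ?_ (by decide +kernel)
  · intro p hp; fin_cases hp <;> norm_num
  · intro d hd
    rw [List.mem_singleton] at hd
    subst hd
    exact H653.Spor.Mathieu.im_m22 h' (by decide)

/-- `M23`: the degrees `1035` and `230`. -/
theorem kite_m23 {S : Type u} [Group S] (h : Spor.IsoM23 S) : Kite S := by
  have h' := H417.RecogMathieu.isM23 h
  have : Finite S := Nat.finite_of_card_ne_zero (by rw [h'.2]; norm_num)
  refine kite_of_list (P := [5, 23, 2, 3]) (D := [1035, 230]) ?_ ?_ (by decide +kernel)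
  · intro p hp; fin_cases hp <;> norm_num
  · intro d hd
    simp only [List.mem_cons, List.not_mem_nil, or_false] at hd
    rcases hd with rfl | rfl
    · exact H653.Spor.Mathieu.im_m23 h' (by decide)
    · exact H653.Spor.Mathieu.im_m23 h' (by decide)

/-- `M24`: the degree `990`. -/
theorem kite_m24 {S : Type u} [Group S] (h : Spor.IsoM24 S) : Kite S := by
  have h' := H417.RecogMathieu.isM24 h
  have : Finite S := Nat.finite_of_card_ne_zero (by rw [h'.2]; norm_num)
  refine kite_of_list (P := [2, 3, 5, 11]) (D := [990]) ?_ ?_ (by decide +kernel)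
  · intro p hp; fin_cases hp <;> norm_num
  · intro d hd
    rw [List.mem_singleton] at hd
    subst hd
    exact H653.Spor.Mathieu.im_m24 h' (by decide)

end Cfsg.Agent.H133.Kite
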