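import Cfsg.Agent.H133.Kite.Basic
import Cfsg.Agent.H672.SporIM.RankRows

/-!
# Kites in the degree graphs of `Suz` and `Fi22` (helper133)
-/

set_option autoImplicit false

namespace Cfsg.Agent.H133.Kite

open Cfsg Cfsg.Agent.H671.H5 Cfsg.Agent.H670.Reg

universe u

/-- `Suz`: the degree `780`. -/
theorem kite_suz {S : Type u} [Group S] (h : Spor.IsoSuz S) : Kite S := by
  obtain ⟨-, h2⟩ := H672.SporIM.suz h
  refine kite_of_list (P := [2, 3, 5, 13]) (D := [780]) ?_ ?_ (by decide +kernel)
  · intro p hp; fin_cases hp <;> norm_num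
  · intro m hm
    rw [List.mem_singleton] at hm
    subst hm
    exact im_of_deg h2

/-- `Fi22`: the degree `3080` or `1430`. -/
theorem kite_fi22 {S : Type u} [Group S] (h : Spor.IsoFi22 S) : Kite S := by
  rcases H672.SporIM.fi22 h with ⟨h1, -⟩ | ⟨-, h1⟩
  · refine kite_of_list (P := [2, 5, 7, 11]) (D := [3080]) ?_ ?_ (by decide +kernel)
    · intro p hp; fin_cases hp <;> norm_num
    · intro m hm
      rw [List.mem_singleton] at hm
      subst hm
      exact im_of_deg h1
  · refine kite_of_list (P := [2, 5, 11, 13]) (D := [1430]) ?_ ?_ (by decide +kernel)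
    · intro p hp; fin_cases hp <;> norm_num
    · intro m hm
      rw [List.mem_singleton] at hm
      subst hm
      exact im_of_deg h1

end Cfsg.Agent.H133.Kite
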